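import Mathlib
import Cfsg.Agent.H1.CoprimeSylow
import Cfsg.Agent.H1.Small2

set_option autoImplicit false

namespace Cfsg.Agent.Lib.Helper16

section Maschke

/-- a projection onto a subgroup of an elementary abelian group -/
theorem exists_proj_of_elementary {p : ℕ} [Fact p.Prime] {V : Type*} [CommGroup V]
    (hV : ∀ v : V, v ^ p = 1) (W : Subgroup V) :
    ∃ f : V →* V, (∀ v, f v ∈ W) ∧ ∀ w ∈ W, f w = w := by
  letI : Module (ZMod p) (Additive V) := AddCommGroup.zmodModule (n := p) (fun x => hV x.toMul)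
  let W' : Submodule (ZMod p) (Additive V) := AddSubgroup.toZModSubmodule p (Subgroup.toAddSubgroup W)
  obtain ⟨U', hU'⟩ := Submodule.exists_isCompl W'
  let g : Additive V →ₗ[ZMod p] W' := Submodule.linearProjOfIsCompl W' U' hU'
  refine ⟨{ toFun := fun v => Additive.toMul ((g (Additive.ofMul v) : W') : Additive V)
            map_one' := ?_
            map_mul' := ?_ }, ?_, ?_⟩
  · have : g (Additive.ofMul (1 : V)) = 0 := by rw [ofMul_one, map_zero]
    rw [this]; rfl
  · intro x y
    have : g (Additive.ofMul (x * y)) = g (Additive.ofMul x) + g (Additive.ofMul y) := by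
      rw [ofMul_mul, map_add]
    rw [this]; rfl
  · intro v
    exact (g (Additive.ofMul v)).2
  · intro w hw
    have h1 : g ((⟨Additive.ofMul w, hw⟩ : W') : Additive V) = ⟨Additive.ofMul w, hw⟩ :=
      Submodule.linearProjOfIsCompl_apply_left hU' _
    change Additive.toMul ((g (Additive.ofMul w) : W') : Additive V) = w
    have h2 : g (Additive.ofMul w) = ⟨Additive.ofMul w, hw⟩ := h1
    rw [h2]; rfl

/-- Maschke's theorem for elementary abelian groups written multiplicatively. -/
theorem maschke_mul {p : ℕ} [Fact p.Prime] {A V : Type*} [Group A] [Finite A] [CommGroup V]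
    [MulDistribMulAction A V] (hV : ∀ v : V, v ^ p = 1) (hcop : (Nat.card A).Coprime p)
    (W : Subgroup V) (hW : ∀ a : A, ∀ x ∈ W, a • x ∈ W) :
    ∃ U : Subgroup V, (∀ a : A, ∀ x ∈ U, a • x ∈ U) ∧ W ⊓ U = ⊥ ∧ W ⊔ U = ⊤ := by
  classical
  haveI : Fintype A := Fintype.ofFinite A
  obtain ⟨f, hf1, hf2⟩ := exists_proj_of_elementary hV W
  let F : V →* V :=
    { toFun := fun v => ∏ a : A, a • f (a⁻¹ • v)
      map_one' := by simp
      map_mul' := fun x y => by simp [Finset.prod_mul_distrib] }
  have hFdef : ∀ v, F v = ∏ a : A, a • f (a⁻¹ • v) := fun v => rfl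
  have hFW : ∀ v, F v ∈ W := by
    intro v
    rw [hFdef]
    exact Subgroup.prod_mem _ (fun a _ => hW a _ (hf1 _))
  have hFw : ∀ w ∈ W, F w = w ^ Nat.card A := by
    intro w hw
    rw [hFdef]
    have : ∀ a : A, a • f (a⁻¹ • w) = w := by
      intro a
      rw [hf2 _ (hW _ _ hw), smul_inv_smul]
    simp [this, Nat.card_eq_fintype_card]
  have hFeq : ∀ (b : A) (v : V), F (b • v) = b • F v := by
    intro b v
    rw [hFdef, hFdef, Finset.smul_prod']
    refine Fintype.prod_equiv (Equiv.mulLeft b⁻¹) _ _ (fun a => ?_)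
    simp only [Equiv.coe_mulLeft, mul_inv_rev, inv_inv, mul_smul, smul_inv_smul]
  refine ⟨F.ker, ?_, ?_, ?_⟩
  · intro a x hx
    rw [MonoidHom.mem_ker] at hx ⊢
    rw [hFeq, hx, smul_one]
  · rw [eq_bot_iff]
    rintro w ⟨hw, hk⟩
    have hk' : F w = 1 := hk
    rw [hFw w hw] at hk'
    have := pow_gcd_eq_one.2 ⟨hk', hV w⟩
    rw [hcop, pow_one] at this
    exact this
  · rw [eq_top_iff]
    intro v _
    obtain ⟨m, -, hm⟩ := Nat.exists_mul_mod_eq_one_of_coprime hcop (Fact.out : p.Prime).one_lt
    have hpow : ∀ w : V, w ^ (Nat.card A * m) = w := by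
      intro w
      rw [← Nat.div_add_mod (Nat.card A * m) p, hm, pow_add, pow_mul, hV, one_pow, one_mul, pow_one]
    have h1 : (F v) ^ m ∈ W := W.pow_mem (hFW v) m
    have h2 : F ((F v) ^ m) = F v := by
      rw [hFw _ h1, ← pow_mul, mul_comm m, hpow]
    have h3 : ((F v) ^ m)⁻¹ * v ∈ F.ker := by
      rw [MonoidHom.mem_ker, map_mul, map_inv, h2, inv_mul_cancel]
    have : v = (F v) ^ m * (((F v) ^ m)⁻¹ * v) := by group
    rw [this]
    exact Subgroup.mul_mem_sup h1 h3

/-- relative Maschke: complements modulo an invariant normal subgroup with elementary abelian quotient -/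
theorem rel_maschke {p : ℕ} [Fact p.Prime] {A G : Type*} [Group A] [Finite A] [Group G]
    [MulDistribMulAction A G] (hcop : (Nat.card A).Coprime p)
    (N : Subgroup G) [hN : N.Normal] (hNA : ∀ a : A, ∀ x ∈ N, a • x ∈ N)
    (hcomm : ∀ x y : G, x * y * (y * x)⁻¹ ∈ N) (hpow : ∀ x : G, x ^ p ∈ N)
    (M : Subgroup G) (hM : ∀ a : A, ∀ x ∈ M, a • x ∈ M) :
    ∃ U : Subgroup G, (∀ a : A, ∀ x ∈ U, a • x ∈ U) ∧ N ≤ U ∧ M ⊓ U ≤ N ∧ M ⊔ U = ⊤ := by
  letI : CommGroup (G ⧸ N) :=
    { (QuotientGroup.Quotient.group N) with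
      mul_comm := by
        intro x y
        induction x using QuotientGroup.induction_on with
        | H x =>
          induction y using QuotientGroup.induction_on with
          | H y =>
            rw [← QuotientGroup.mk_mul, ← QuotientGroup.mk_mul, QuotientGroup.eq]
            have := N.inv_mem (hcomm x y)
            have h2 : (x * y)⁻¹ * (y * x) = (x * y)⁻¹ * (x * y * (y * x)⁻¹)⁻¹ * (x * y) := by group
            rw [h2]
            have h3 := hN.conj_mem _ this (x * y)⁻¹
            rwa [inv_inv] at h3 }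
  let act : A → (G ⧸ N) →* (G ⧸ N) := fun a =>
    QuotientGroup.map N N (MulDistribMulAction.toMonoidHom G a) (fun x hx => hNA a x hx)
  have hact : ∀ (a : A) (x : G), act a (x : G ⧸ N) = ((a • x : G) : G ⧸ N) := fun a x => rfl
  letI : MulDistribMulAction A (G ⧸ N) :=
    { smul := fun a v => act a v
      one_smul := by
        intro v
        induction v using QuotientGroup.induction_on with
        | H x => change act 1 (x : G ⧸ N) = _; rw [hact, one_smul]
      mul_smul := by
        intro a b v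
        induction v using QuotientGroup.induction_on with
        | H x =>
          change act (a * b) (x : G ⧸ N) = act a (act b (x : G ⧸ N))
          rw [hact, hact, hact, mul_smul]
      smul_mul := by
        intro a v w
        exact map_mul (act a) v w
      smul_one := by
        intro a
        exact map_one (act a) }
  have hsm : ∀ (a : A) (x : G), a • (x : G ⧸ N) = ((a • x : G) : G ⧸ N) := fun a x => rfl
  have hV : ∀ v : G ⧸ N, v ^ p = 1 := by
    intro v
    induction v using QuotientGroup.induction_on with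
    | H x =>
      rw [← QuotientGroup.mk_pow, QuotientGroup.eq_one_iff]
      exact hpow x
  obtain ⟨U, hU1, hU2, hU3⟩ := maschke_mul (A := A) hV hcop (M.map (QuotientGroup.mk' N)) (by
    rintro a _ ⟨x, hx, rfl⟩
    exact ⟨a • x, hM a x hx, rfl⟩)
  refine ⟨U.comap (QuotientGroup.mk' N), ?_, ?_, ?_, ?_⟩
  · intro a x hx
    rw [Subgroup.mem_comap] at hx ⊢
    exact hU1 a _ hx
  · intro x hx
    rw [Subgroup.mem_comap]
    have : QuotientGroup.mk' N x = 1 := (QuotientGroup.eq_one_iff x).2 hx
    rw [this]; exact U.one_mem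
  · rintro x ⟨hx1, hx2⟩
    have h1 : QuotientGroup.mk' N x ∈ M.map (QuotientGroup.mk' N) ⊓ U :=
      ⟨⟨x, hx1, rfl⟩, hx2⟩
    rw [hU2, Subgroup.mem_bot] at h1
    exact (QuotientGroup.eq_one_iff x).1 h1
  · rw [eq_top_iff]
    intro g _
    have h1 : QuotientGroup.mk' N g ∈ M.map (QuotientGroup.mk' N) ⊔ U := by rw [hU3]; trivial
    obtain ⟨_, ⟨m, hm, rfl⟩, u, hu, hmu⟩ := Subgroup.mem_sup.1 h1
    have h2 : m⁻¹ * g ∈ U.comap (QuotientGroup.mk' N) := by
      rw [Subgroup.mem_comap, map_mul, ← hmu, map_inv, inv_mul_cancel_left]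
      exact hu
    have : g = m * (m⁻¹ * g) := by group
    rw [this]
    exact Subgroup.mul_mem_sup hm h2

end Maschke

section Syl

open scoped Pointwise in
open SemidirectProduct in
/-- invariant Sylow subgroups for an external coprime action -/
theorem exists_invariant_sylow {A G : Type*} [Group A] [Finite A] [Group G] [Finite G]
    [MulDistribMulAction A G] (hcop : (Nat.card A).Coprime (Nat.card G))
    (hsol : Group.IsSolvable A ∨ Group.IsSolvable G) (p : ℕ) [Fact p.Prime] :
    ∃ P : Sylow p G, ∀ a : A, ∀ x ∈ P, a • x ∈ P := by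
  let φ : A →* MulAut G := MulDistribMulAction.toMulAut A G
  let Ψ : G ⋊[φ] A →* MulAut G := SemidirectProduct.lift MulAut.conj φ (by
    intro a
    ext x y
    simp [MulAut.conj_apply])
  letI : MulAction (G ⋊[φ] A) (Sylow p G) := MulAction.compHom (Sylow p G) Ψ
  have hsm : ∀ (γ : G ⋊[φ] A) (P : Sylow p G), γ • P = Ψ γ • P := fun _ _ => rfl
  haveI : Finite (G ⋊[φ] A) := Finite.of_equiv _ (SemidirectProduct.equivProd (φ := φ)).symm
  have hKn : (inl : G →* G ⋊[φ] A).range.Normal := by
    rw [range_inl_eq_ker_rightHom]; infer_instance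
  have key := Cfsg.H1.glauberman_internal (G := G ⋊[φ] A) (X := Sylow p G)
    (inr : A →* G ⋊[φ] A).range (inl : G →* G ⋊[φ] A).range
    (Cfsg.H1.le_normalizer_of_normal' _ _)
    (by
      rw [Nat.card_congr (MonoidHom.ofInjective (inr_injective (φ := φ))).toEquiv.symm,
        Nat.card_congr (MonoidHom.ofInjective (inl_injective (φ := φ))).toEquiv.symm]
      exact hcop)
    (hsol.imp (fun h => @Group.isSolvable_of_surjective _ _ _ _ _
        (MonoidHom.rangeRestrict_surjective _) h)
      (fun h => @Group.isSolvable_of_surjective _ _ _ _ _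
        (MonoidHom.rangeRestrict_surjective _) h))
    (by
      intro P Q
      obtain ⟨g, hg⟩ := MulAction.exists_smul_eq G P Q
      refine ⟨inl g, ⟨g, rfl⟩, ?_⟩
      rw [hsm, ← hg]
      have : Ψ (inl g) = MulAut.conj g := lift_inl _ _ _ g
      rw [this]
      rfl)
  obtain ⟨P, hP⟩ := key.1
  refine ⟨P, fun a x hx => ?_⟩
  have h1 := hP (inr a) ⟨a, rfl⟩
  rw [hsm] at h1
  have h2 : Ψ (inr a) = φ a := lift_inr _ _ _ a
  rw [h2] at h1
  have h3 : φ a • x ∈ (φ a • P : Sylow p G) := by
    change φ a • x ∈ (φ a • (P : Subgroup G))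
    exact Subgroup.smul_mem_pointwise_smul _ _ _ hx
  rw [h1] at h3
  exact h3

end Syl

end Cfsg.Agent.Lib.Helper16
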