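import Mathlib
import Cfsg.Agent.Lib.Helper16.TI
import Cfsg.Agent.Lib.Helper16.TI2

set_option autoImplicit false
open scoped Pointwise

namespace Cfsg.Agent.Lib.Helper16

section
variable {G : Type*} [Group G]

/-- prime power case of: `N(⟨x⟩) = C(x)` passes to quotients by normal `p'`-subgroups -/
theorem comm_of_normalizes_quot [Finite G] {p : ℕ} [Fact p.Prime] (N : Subgroup G) [N.Normal]
    (hN : (Nat.card N).Coprime p) (x : G) (hx : ∃ k : ℕ, orderOf x = p ^ k)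
    (hirr : Subgroup.normalizer ((Subgroup.zpowers x : Subgroup G) : Set G) ≤
      Subgroup.centralizer {x}) (u : G)
    (hu : QuotientGroup.mk' N u * QuotientGroup.mk' N x * (QuotientGroup.mk' N u)⁻¹ ∈
      Subgroup.zpowers (QuotientGroup.mk' N x)) :
    QuotientGroup.mk' N u * QuotientGroup.mk' N x =
      QuotientGroup.mk' N x * QuotientGroup.mk' N u := by
  set f := QuotientGroup.mk' N with hf
  set H : Subgroup G := Subgroup.comap f (Subgroup.zpowers (f x)) with hH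
  have hxH : x ∈ H := Subgroup.mem_comap.2 (Subgroup.mem_zpowers _)
  have hxH' : u * x * u⁻¹ ∈ H := by
    rw [hH, Subgroup.mem_comap, map_mul, map_mul, map_inv]; exact hu
  obtain ⟨k, hk⟩ := hx
  have hX : IsPGroup p ↥(Subgroup.zpowers x) :=
    IsPGroup.of_card (n := k) (by rw [Nat.card_zpowers, hk])
  have hX' : IsPGroup p ↥(Subgroup.zpowers (u * x * u⁻¹)) :=
    IsPGroup.of_card (n := k) (by
      rw [Nat.card_zpowers]
      have : orderOf (u * x * u⁻¹) = orderOf x := by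
        have := orderOf_injective (MulAut.conj u).toMonoidHom (MulAut.conj u).injective x
        simpa using this
      rw [this, hk])
  obtain ⟨R, hR⟩ := (hX.comap_of_injective H.subtype H.subtype_injective).exists_le_sylow
  obtain ⟨R', hR'⟩ := (hX'.comap_of_injective H.subtype H.subtype_injective).exists_le_sylow
  obtain ⟨h, hh⟩ := MulAction.exists_smul_eq ↥H R R'
  have hxR : (⟨x, hxH⟩ : ↥H) ∈ (R : Subgroup ↥H) :=
    hR (Subgroup.mem_comap.2 (Subgroup.mem_zpowers x))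
  have hxR' : (⟨u * x * u⁻¹, hxH'⟩ : ↥H) ∈ (R' : Subgroup ↥H) :=
    hR' (Subgroup.mem_comap.2 (Subgroup.mem_zpowers _))
  rw [← hh, Sylow.coe_subgroup_smul, mem_conj_smul] at hxR'
  have hinj : ∀ r s : ↥H, r ∈ (R : Subgroup ↥H) → s ∈ (R : Subgroup ↥H) →
      f (r : G) = f (s : G) → r = s := by
    intro r s hr hs hrs
    have ht : r⁻¹ * s ∈ (R : Subgroup ↥H) := Subgroup.mul_mem _ (Subgroup.inv_mem _ hr) hs
    have htN : ((r⁻¹ * s : ↥H) : G) ∈ N := by
      rw [← QuotientGroup.eq_one_iff]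
      show f ((r⁻¹ * s : ↥H) : G) = 1
      rw [Subgroup.coe_mul, Subgroup.coe_inv, map_mul, map_inv, hrs, inv_mul_cancel]
    obtain ⟨a, ha⟩ := R.2 ⟨r⁻¹ * s, ht⟩
    have ha' : ((r⁻¹ * s : ↥H) : G) ^ (p ^ a) = 1 := by
      have := congrArg (fun t : ↥(R : Subgroup ↥H) => ((t : ↥H) : G)) ha
      simpa using this
    have h1 : orderOf ((r⁻¹ * s : ↥H) : G) ∣ p ^ a := orderOf_dvd_of_pow_eq_one ha'
    have h2 : orderOf ((r⁻¹ * s : ↥H) : G) ∣ Nat.card N := by
      have := orderOf_dvd_natCard (⟨_, htN⟩ : ↥N)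
      rwa [Subgroup.orderOf_mk] at this
    have h3 : orderOf ((r⁻¹ * s : ↥H) : G) = 1 :=
      Nat.eq_one_of_dvd_coprimes (Nat.Coprime.pow_right a hN) h2 h1
    rw [orderOf_eq_one_iff] at h3
    have h4 : r⁻¹ * s = 1 := Subtype.ext h3
    exact (inv_mul_eq_one.1 h4)
  have h5 : f ((h⁻¹ * ⟨u * x * u⁻¹, hxH'⟩ * h : ↥H) : G) ∈ Subgroup.zpowers (f x) :=
    Subgroup.mem_comap.1 (h⁻¹ * (⟨u * x * u⁻¹, hxH'⟩ : ↥H) * h : ↥H).2
  obtain ⟨i, hi⟩ := Subgroup.mem_zpowers_iff.1 h5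
  have h6 := hinj _ _ (Subgroup.zpow_mem _ hxR i) hxR' (by
    rw [← hi, Subgroup.coe_zpow, map_zpow])
  have h7 : x ^ i = (h : G)⁻¹ * (u * x * u⁻¹) * h := by
    have := congrArg Subtype.val h6
    simpa using this
  have hw : (h : G)⁻¹ * u ∈ Subgroup.normalizer ((Subgroup.zpowers x : Subgroup G) : Set G) := by
    rw [mem_normalizer_zpowers_iff]
    refine Subgroup.mem_zpowers_iff.2 ⟨i, ?_⟩
    rw [h7]; group
  have h8 := hirr hw
  rw [Subgroup.mem_centralizer_singleton_iff] at h8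
  have h9 : f ((h : G)⁻¹ * u) * f x = f x * f ((h : G)⁻¹ * u) := by
    rw [← map_mul, ← map_mul, h8]
  obtain ⟨j, hj⟩ := Subgroup.mem_zpowers_iff.1 (Subgroup.mem_comap.1 h.2)
  have h10 : f (h : G) * f x = f x * f (h : G) := by
    rw [← hj, ← zpow_add_one, ← zpow_one_add, add_comm]
  have h11 : f u = f (h : G) * f ((h : G)⁻¹ * u) := by
    rw [← map_mul, mul_inv_cancel_left]
  rw [h11, mul_assoc, h9, ← mul_assoc, h10, mul_assoc]

end

end Cfsg.Agent.Lib.Helper16
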