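import Mathlib

set_option autoImplicit false

namespace Cfsg.Agent.Lib.Helper16

open Polynomial

/-- an endomorphism `f` of a nonzero finite `𝔽_q`-space with `f ^ (q-1) = 1` has an eigenvalue -/
theorem exists_hasEigenvalue_of_pow_eq_one {q : ℕ} [hq : Fact q.Prime] {M : Type*} [AddCommGroup M]
    [Module (ZMod q) M] [Finite M] [Nontrivial M] (f : Module.End (ZMod q) M)
    (hf : f ^ (q - 1) = 1) : ∃ μ : ZMod q, f.HasEigenvalue μ := by
  have hfin : Module.Finite (ZMod q) M := Module.Finite.of_finite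
  have h0 : aeval f (X ^ q - X : (ZMod q)[X]) = 0 := by
    have h1 : f ^ q = f := by
      have h2 : f ^ (q - 1 + 1) = f := by rw [pow_succ, hf, one_mul]
      rwa [Nat.sub_add_cancel hq.out.one_lt.le] at h2
    simp [h1]
  have hdvd : minpoly (ZMod q) f ∣ (X ^ q - X : (ZMod q)[X]) := minpoly.dvd _ _ h0
  have hsplit : (X ^ q - X : (ZMod q)[X]).Splits := by
    have := FiniteField.splits_X_pow_card_sub_X q (K := ZMod q)
    simpa [ZMod.card] using this
  have hne : (X ^ q - X : (ZMod q)[X]) ≠ 0 := FiniteField.X_pow_card_sub_X_ne_zero _ hq.out.one_lt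
  have hs := hsplit.of_dvd hne hdvd
  have hint : IsIntegral (ZMod q) f := Algebra.IsIntegral.isIntegral f
  obtain ⟨μ, hμ⟩ := hs.exists_eval_eq_zero (minpoly.degree_pos hint).ne'
  exact ⟨μ, Module.End.hasEigenvalue_of_isRoot hμ⟩

theorem exists_eigenvector_add {q : ℕ} [hq : Fact q.Prime] {M : Type*} [AddCommGroup M]
    [Module (ZMod q) M] [Finite M] [Nontrivial M] (φ : M →+ M) (hφ : ∀ a, φ^[q - 1] a = a) :
    ∃ c : ℕ, ∃ a : M, a ≠ 0 ∧ φ a = c • a := by
  let f : Module.End (ZMod q) M := φ.toZModLinearMap q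
  have hfa : ∀ (n : ℕ) (x : M), (f ^ n) x = (φ^[n] x) := by
    intro n x
    rw [Module.End.pow_apply]
    rfl
  have hf : f ^ (q - 1) = 1 := by
    ext x
    rw [hfa, hφ]
    rfl
  obtain ⟨μ, hμ⟩ := exists_hasEigenvalue_of_pow_eq_one f hf
  obtain ⟨v, hv⟩ := hμ.exists_hasEigenvector
  refine ⟨μ.val, v, hv.2, ?_⟩
  have h1 : f v = μ • v := hv.apply_eq_smul
  have h2 : μ • v = μ.val • v := by
    conv_lhs => rw [← ZMod.natCast_zmod_val μ]
    rw [Nat.cast_smul_eq_nsmul]
  rw [h2] at h1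
  exact h1

/-- multiplicative version -/
theorem exists_eigenvector_of_iterate {q : ℕ} [hq : Fact q.Prime] {A : Type*} [CommGroup A] [Finite A]
    [Nontrivial A] (hA : ∀ a : A, a ^ q = 1) (σ : A →* A) (hσ : ∀ a, σ^[q - 1] a = a) :
    ∃ c : ℕ, ∃ a : A, a ≠ 1 ∧ σ a = a ^ c := by
  have key := @exists_eigenvector_add q hq (Additive A) _ (AddCommGroup.zmodModule (n := q) (by
    intro x
    exact hA (Additive.toMul x))) _ _ (MonoidHom.toAdditive σ) (by
      intro a
      have h1 : ∀ n : ℕ, (MonoidHom.toAdditive σ)^[n] a = Additive.ofMul (σ^[n] (Additive.toMul a)) := by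
        intro n
        induction n with
        | zero => rfl
        | succ n ih =>
          rw [Function.iterate_succ_apply', ih, Function.iterate_succ_apply']
          rfl
      rw [h1, hσ]
      rfl)
  obtain ⟨c, a, ha, hc⟩ := key
  exact ⟨c, Additive.toMul a, fun h => ha h, hc⟩

open scoped commutatorElement in
/-- **Lemma X**: a minimal normal elementary abelian `q`-subgroup on which `G` acts as an abelian group of
exponent dividing `q - 1` is cyclic. -/
theorem isCyclic_of_minimal_normal_of_abelian_action {G : Type*} [Group G] [Finite G] {q : ℕ}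
    [Fact q.Prime] (W : Subgroup G) [hWn : W.Normal] (hW1 : W ≠ ⊥) (hWc : IsMulCommutative W)
    (hWq : ∀ w ∈ W, w ^ q = 1)
    (hmin : ∀ N : Subgroup G, N.Normal → N ≤ W → N = ⊥ ∨ N = W)
    (H1 : ∀ g h : G, ⁅g, h⁆ ∈ Subgroup.centralizer (W : Set G))
    (H2 : ∀ g : G, g ^ (q - 1) ∈ Subgroup.centralizer (W : Set G)) : IsCyclic W := by
  have hcomm : ∀ a ∈ W, ∀ b ∈ W, a * b = b * a := by
    intro a ha b hb
    exact congrArg Subtype.val (hWc.is_comm.comm (⟨a, ha⟩ : ↥W) ⟨b, hb⟩)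
  have step1 : ∀ g : G, ∃ c : ℕ, ∀ w ∈ W, g * w * g⁻¹ = w ^ c := by
    intro g
    let _ : CommGroup ↥W := { (inferInstance : Group ↥W) with mul_comm := hWc.is_comm.comm }
    have hnt : Nontrivial ↥W := (Subgroup.nontrivial_iff_ne_bot W).2 hW1
    let σ : ↥W →* ↥W := (MulAut.conjNormal g : MulAut ↥W).toMonoidHom
    have hσ1 : ∀ a : ↥W, ((σ a : ↥W) : G) = g * a * g⁻¹ := fun a => MulAut.conjNormal_apply g a
    have hσn : ∀ (n : ℕ) (a : ↥W), ((σ^[n] a : ↥W) : G) = g ^ n * a * (g ^ n)⁻¹ := by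
      intro n
      induction n with
      | zero => intro a; simp
      | succ n ih =>
        intro a
        rw [Function.iterate_succ_apply', hσ1, ih, pow_succ']
        group
    obtain ⟨c, a, ha1, hac⟩ := exists_eigenvector_of_iterate (q := q) (A := ↥W)
      (fun a => Subtype.ext (hWq a a.2)) σ (by
        intro a
        apply Subtype.ext
        rw [hσn]
        have := (Subgroup.mem_centralizer_iff.1 (H2 g)) a a.2
        rw [← this, mul_inv_cancel_right])
    refine ⟨c, ?_⟩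
    let Wc : Subgroup G :=
      { carrier := {w | w ∈ W ∧ g * w * g⁻¹ = w ^ c}
        one_mem' := ⟨W.one_mem, by simp⟩
        mul_mem' := by
          rintro x y ⟨hx, hxc⟩ ⟨hy, hyc⟩
          refine ⟨W.mul_mem hx hy, ?_⟩
          have h1 : g * (x * y) * g⁻¹ = (g * x * g⁻¹) * (g * y * g⁻¹) := by group
          rw [h1, hxc, hyc, (show Commute x y from hcomm x hx y hy).mul_pow]
        inv_mem' := by
          rintro x ⟨hx, hxc⟩
          refine ⟨W.inv_mem hx, ?_⟩
          have h1 : g * x⁻¹ * g⁻¹ = (g * x * g⁻¹)⁻¹ := by group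
          rw [h1, hxc, inv_pow] }
    have hWcn : Wc.Normal := by
      refine ⟨fun w hw h => ?_⟩
      obtain ⟨hwW, hwc⟩ := hw
      refine ⟨hWn.conj_mem w hwW h, ?_⟩
      have hz := (Subgroup.mem_centralizer_iff.1 (H1 g⁻¹ h⁻¹)) w hwW
      have h2 : ⁅g⁻¹, h⁻¹⁆ * w * ⁅g⁻¹, h⁻¹⁆⁻¹ = w := by
        rw [← hz, mul_inv_cancel_right]
      have h3 : g * (h * w * h⁻¹) * g⁻¹ =
          h * (g * (⁅g⁻¹, h⁻¹⁆ * w * ⁅g⁻¹, h⁻¹⁆⁻¹) * g⁻¹) * h⁻¹ := by
        rw [commutatorElement_def]; group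
      rw [h3, h2, hwc, conj_pow]
    have hWcle : Wc ≤ W := fun w hw => hw.1
    rcases hmin Wc hWcn hWcle with h | h
    · exfalso
      have ha : (a : G) ∈ Wc := by
        refine ⟨a.2, ?_⟩
        rw [← hσ1, hac]; rfl
      rw [h, Subgroup.mem_bot] at ha
      exact ha1 (Subtype.ext ha)
    · intro w hw
      have : w ∈ Wc := h ▸ hw
      exact this.2
  obtain ⟨⟨w, hw⟩, hw1⟩ := Subgroup.ne_bot_iff_exists_ne_one.1 hW1
  have hw1' : w ≠ 1 := fun h => hw1 (Subtype.ext h)
  have hN : (Subgroup.zpowers w).Normal := by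
    refine ⟨fun x hx h => ?_⟩
    obtain ⟨i, rfl⟩ := Subgroup.mem_zpowers_iff.1 hx
    obtain ⟨c, hc⟩ := step1 h
    rw [← conj_zpow, hc w hw]
    exact Subgroup.zpow_mem _ (Subgroup.pow_mem _ (Subgroup.mem_zpowers w) c) i
  rcases hmin _ hN (by rw [Subgroup.zpowers_le]; exact hw) with h | h
  · exfalso
    have := Subgroup.mem_zpowers w
    rw [h, Subgroup.mem_bot] at this
    exact hw1' this
  · rw [← h]; infer_instance

end Cfsg.Agent.Lib.Helper16
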