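import Mathlib
import Cfsg.Prelude.Def_SolvableStructure
import Cfsg.Agent.Lib.Helper16.SS1
import Cfsg.Agent.Lib.Helper16.PRed
import Cfsg.Agent.Lib.Helper16.Large
import Cfsg.Agent.Lib.Helper16.Comm
import Cfsg.Agent.H4.Supersolvable

set_option autoImplicit false

universe u

namespace Cfsg.Agent.Lib.Helper16

open Subgroup
open scoped commutatorElement

/-- **Theorem SS**: `Q ⊴ G` a `q`-group with `G/Q` supersolvable, `L ⊴ G` containing all commutators and
`(q-1)`-th powers, whose `q'`-elements centralize `Q`.  Then `G` is supersolvable. -/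
theorem ss_aux (q : ℕ) [hq : Fact q.Prime] : ∀ (n : ℕ) (G : Type u) [Group G] [Finite G],
    Nat.card G = n → ∀ (Q L : Subgroup G) [Q.Normal] [L.Normal], IsPGroup q Q →
    Cfsg.IsSupersolvable (G ⧸ Q) → (∀ a b : G, ⁅a, b⁆ ∈ L) → (∀ g : G, g ^ (q - 1) ∈ L) →
    (∀ l ∈ L, (orderOf l).Coprime q → l ∈ centralizer (Q : Set G)) → Cfsg.IsSupersolvable G := by
  intro n
  induction n using Nat.strong_induction_on with
  | _ n ih =>
    intro G _ _ hn Q L hQn hLn hQ hss hc hp hl
    by_cases hQ1 : Q = ⊥
    · exact Cfsg.Agent.H4.isSupersolvable_of_injective (QuotientGroup.mk' Q)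
        (by rw [← MonoidHom.ker_eq_bot_iff, QuotientGroup.ker_mk', hQ1]) hss
    · have hZ1 : Q ⊓ centralizer (Q : Set G) ≠ ⊥ := inf_centralizer_ne_bot hQ hQ hQ1 le_normalizer
      obtain ⟨W, ⟨hWn, hW1, hWZ⟩, hmin⟩ := Set.Finite.exists_minimal
        (s := {N : Subgroup G | N.Normal ∧ N ≠ ⊥ ∧ N ≤ Q ⊓ centralizer (Q : Set G)})
        (Set.toFinite _) ⟨_, inferInstance, hZ1, le_rfl⟩
      have hWQ : W ≤ Q := hWZ.trans inf_le_left
      have hWp : IsPGroup q W := hQ.to_le hWQ
      have hmin' : ∀ N : Subgroup G, N.Normal → N ≤ W → N = ⊥ ∨ N = W := by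
        intro N hN hNW
        by_cases hN1 : N = ⊥
        · exact Or.inl hN1
        · exact Or.inr (le_antisymm hNW (hmin ⟨hN, hN1, hNW.trans hWZ⟩ hNW))
      have hcomm : ∀ a ∈ W, ∀ b ∈ W, a * b = b * a := by
        intro a ha b hb
        exact ((mem_centralizer_iff.1 (hWZ hb).2) a (hWQ ha))
      have hWc : IsMulCommutative W := ⟨⟨fun a b => Subtype.ext (hcomm a a.2 b b.2)⟩⟩
      -- exponent q
      have hWq : ∀ w ∈ W, w ^ q = 1 := by
        let Wq : Subgroup G :=
          { carrier := {w | w ∈ W ∧ w ^ q = 1}
            one_mem' := ⟨W.one_mem, one_pow _⟩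
            mul_mem' := by
              rintro x y ⟨hx, hxq⟩ ⟨hy, hyq⟩
              exact ⟨W.mul_mem hx hy, by
                rw [(show Commute x y from hcomm x hx y hy).mul_pow, hxq, hyq, one_mul]⟩
            inv_mem' := by
              rintro x ⟨hx, hxq⟩
              exact ⟨W.inv_mem hx, by rw [inv_pow, hxq, inv_one]⟩ }
        have hWqn : Wq.Normal := by
          refine ⟨fun w hw h => ⟨hWn.conj_mem w hw.1 h, ?_⟩⟩
          rw [conj_pow, hw.2]; simp
        have hdvd : q ∣ Nat.card W := by
          obtain ⟨k, hk⟩ := IsPGroup.iff_card.1 hWp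
          rw [hk]
          cases k with
          | zero => rw [pow_zero, card_eq_one] at hk; exact absurd hk hW1
          | succ k => exact dvd_pow_self _ (Nat.succ_ne_zero k)
        obtain ⟨w, hw⟩ := exists_prime_orderOf_dvd_card' q hdvd
        rcases hmin' Wq hWqn (fun x hx => hx.1) with h | h
        · exfalso
          have hwq : (w : G) ∈ Wq := by
            refine ⟨w.2, ?_⟩
            have := pow_orderOf_eq_one w
            rw [hw] at this
            exact congrArg Subtype.val this
          rw [h, mem_bot] at hwq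
          have : w = 1 := Subtype.ext hwq
          rw [this, orderOf_one] at hw
          exact hq.out.one_lt.ne hw
        · intro x hx
          have : x ∈ Wq := h ▸ hx
          exact this.2
      -- `L` centralizes `W`
      have hLW : L ≤ centralizer (W : Set G) := by
        obtain ⟨T, hT⟩ := exists_isSyl q L
        have h1 : W ⊓ centralizer (T : Set G) ≠ ⊥ :=
          inf_centralizer_ne_bot hWp hT.isPGroup hW1 le_normalizer_of_normal
        have h2 : W ⊓ centralizer (T : Set G) ≤ W ⊓ centralizer (L : Set G) := by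
          intro w hw
          obtain ⟨hwW, hwT⟩ := mem_inf.1 hw
          refine mem_inf.2 ⟨hwW, ?_⟩
          have h3 : L ≤ centralizer ({w} : Set G) := by
            apply le_of_pow_mem hT (C := centralizer (Q : Set G))
            · intro d hd
              obtain ⟨k, hk⟩ := exists_pow_coprime (p := q) d
              exact ⟨k, hl _ (L.pow_mem hd _) hk⟩
            · apply centralizer_le
              intro x hx
              rw [Set.mem_singleton_iff] at hx
              rw [hx]; exact hWQ hwW
            · intro t ht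
              rw [mem_centralizer_singleton_iff]
              exact (mem_centralizer_iff.1 hwT) t ht
          rw [mem_centralizer_iff]
          intro l hl'
          have := h3 hl'
          rw [mem_centralizer_singleton_iff] at this
          exact this
        have h4 : W ⊓ centralizer (L : Set G) ≠ ⊥ := fun h => h1 (le_bot_iff.1 (h ▸ h2))
        rcases hmin' _ inferInstance (inf_le_left : W ⊓ centralizer (L : Set G) ≤ W) with h | h
        · exact absurd h h4
        · rw [le_centralizer_iff]
          rw [← h]; exact inf_le_right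
      have hcyc : IsCyclic W := isCyclic_of_minimal_normal_of_abelian_action (q := q) W hW1 hWc hWq
        hmin' (fun g h => hLW (hc g h)) (fun g => hLW (hp g))
      -- the quotient
      have hsurj := QuotientGroup.mk'_surjective W
      have hcard : Nat.card (G ⧸ W) < n := by
        rw [← hn, ← index_eq_card, ← card_mul_index W]
        have h1 : 1 < Nat.card W := by
          rw [one_lt_card_iff_ne_bot]; exact hW1
        have h3 : 0 < W.index := Nat.pos_of_ne_zero index_ne_zero_of_finite
        nlinarith
      have hQn' : (Q.map (QuotientGroup.mk' W)).Normal := hQn.map _ hsurj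
      have hLn' : (L.map (QuotientGroup.mk' W)).Normal := hLn.map _ hsurj
      have hssW : Cfsg.IsSupersolvable (G ⧸ W) := by
        apply ih _ hcard (G ⧸ W) rfl (Q.map (QuotientGroup.mk' W)) (L.map (QuotientGroup.mk' W))
          (hQ.map _)
        · exact Cfsg.Agent.H4.isSupersolvable_of_injective
            (QuotientGroup.quotientQuotientEquivQuotient W Q hWQ).toMonoidHom
            (QuotientGroup.quotientQuotientEquivQuotient W Q hWQ).injective hss
        · intro a b
          obtain ⟨a, rfl⟩ := hsurj a
          obtain ⟨b, rfl⟩ := hsurj b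
          rw [← map_commutatorElement]
          exact mem_map_of_mem _ (hc a b)
        · intro g
          obtain ⟨g, rfl⟩ := hsurj g
          rw [← map_pow]
          exact mem_map_of_mem _ (hp g)
        · rintro _ ⟨l, hlL, rfl⟩ hlo
          obtain ⟨k, hk⟩ := exists_pow_coprime (p := q) l
          have h1 := hl _ (L.pow_mem hlL _) hk
          apply mem_of_pow_mem_of_coprime (n := q ^ k) _ (Nat.Coprime.pow_right _ hlo)
          rw [← map_pow, mem_centralizer_iff]
          rintro _ ⟨x, hx, rfl⟩
          rw [← map_mul, ← map_mul, (mem_centralizer_iff.1 h1) x hx]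
      exact Cfsg.Agent.H4.isSupersolvable_of_cyclic_normal W hssW

theorem isSupersolvable_of_LL {G : Type u} [Group G] [Finite G] (q : ℕ) [hq : Fact q.Prime]
    (Q L : Subgroup G) [Q.Normal] [L.Normal] (hQ : IsPGroup q Q)
    (hss : Cfsg.IsSupersolvable (G ⧸ Q)) (hc : ∀ a b : G, ⁅a, b⁆ ∈ L) (hp : ∀ g : G, g ^ (q - 1) ∈ L)
    (hl : ∀ l ∈ L, (orderOf l).Coprime q → l ∈ centralizer (Q : Set G)) : Cfsg.IsSupersolvable G :=
  ss_aux q _ G rfl Q L hQ hss hc hp hl

end Cfsg.Agent.Lib.Helper16
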