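import Mathlib
import Cfsg.Agent.Lib.Helper16.HSub
import Cfsg.Agent.Lib.Helper16.SS2

set_option autoImplicit false

universe u

namespace Cfsg.Agent.Lib.Helper16

open Subgroup
open scoped commutatorElement

section
variable {G : Type*} [Group G]

/-- the normal subgroup generated by the commutators and the `(q-1)`-th powers -/
def LL (q : ℕ) (G : Type*) [Group G] : Subgroup G :=
  Subgroup.normalClosure ({x | ∃ a b : G, x = ⁅a, b⁆} ∪ {x | ∃ g : G, x = g ^ (q - 1)})

instance LL_normal (q : ℕ) : (LL q G).Normal := Subgroup.normalClosure_normal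

theorem commutator_mem_LL (q : ℕ) (a b : G) : ⁅a, b⁆ ∈ LL q G :=
  Subgroup.subset_normalClosure (Or.inl ⟨a, b, rfl⟩)

theorem pow_mem_LL (q : ℕ) (g : G) : g ^ (q - 1) ∈ LL q G :=
  Subgroup.subset_normalClosure (Or.inr ⟨g, rfl⟩)

theorem LL_le {q : ℕ} {K : Subgroup G} [K.Normal] (h1 : ∀ a b : G, ⁅a, b⁆ ∈ K)
    (h2 : ∀ g : G, g ^ (q - 1) ∈ K) : LL q G ≤ K := by
  apply Subgroup.normalClosure_le_normal
  rintro x (⟨a, b, rfl⟩ | ⟨g, rfl⟩)
  · exact h1 a b
  · exact h2 g

theorem map_mem_LL {q : ℕ} {H : Type*} [Group H] (f : G →* H) {l : G} (hl : l ∈ LL q G) :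
    f l ∈ LL q H := by
  have h : LL q G ≤ (LL q H).comap f := by
    apply LL_le
    · intro a b
      rw [mem_comap, map_commutatorElement]; exact commutator_mem_LL q _ _
    · intro g
      rw [mem_comap, map_pow]; exact pow_mem_LL q _
  exact h hl

/-- **Lemma B** -/
theorem mem_centralizer_of_mem_LL_cyclic [Finite G] {q : ℕ} [hq : Fact q.Prime] {C : Subgroup G}
    [C.Normal] (hC : IsPGroup q C) (hcyc : IsCyclic C) {l : G} (hl : l ∈ LL q G)
    (hlo : (orderOf l).Coprime q) : l ∈ centralizer (C : Set G) := by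
  obtain ⟨t, ht⟩ := IsPGroup.iff_card.1 hC
  let θ : G →* (ZMod (Nat.card C))ˣ :=
    (IsCyclic.mulAutMulEquiv ↥C).toMonoidHom.comp (MulAut.conjNormal (H := C))
  have hunits : ∀ u : (ZMod (Nat.card C))ˣ, u ^ ((q - 1) * q ^ t) = 1 := by
    intro u
    have h1 : Nat.card (ZMod (Nat.card C))ˣ ∣ (q - 1) * q ^ t := by
      rw [Nat.card_eq_fintype_card, ZMod.card_units_eq_totient, ht]
      cases t with
      | zero => simp
      | succ t =>
        rw [Nat.totient_prime_pow_succ hq.out, pow_succ]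
        exact ⟨q, by ring⟩
    obtain ⟨c, hc⟩ := h1
    rw [hc, pow_mul, pow_card_eq_one', one_pow]
  have hle : LL q G ≤ ((powMonoidHom (q ^ t) : (ZMod (Nat.card C))ˣ →* (ZMod (Nat.card C))ˣ).comp θ).ker := by
    apply LL_le
    · intro a b
      rw [MonoidHom.mem_ker, MonoidHom.comp_apply, map_commutatorElement,
        commutatorElement_eq_one_iff_mul_comm.2 (mul_comm _ _), map_one]
    · intro g
      rw [MonoidHom.mem_ker, MonoidHom.comp_apply, map_pow, powMonoidHom_apply, ← pow_mul]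
      exact hunits _
  have h1 := hle hl
  rw [MonoidHom.mem_ker, MonoidHom.comp_apply, powMonoidHom_apply] at h1
  have h2 : (θ l) ^ (orderOf l) = 1 := by rw [← map_pow, pow_orderOf_eq_one, map_one]
  have h3 : orderOf (θ l) = 1 :=
    Nat.eq_one_of_dvd_coprimes (Nat.Coprime.pow_right t hlo) (orderOf_dvd_of_pow_eq_one h2)
      (orderOf_dvd_of_pow_eq_one h1)
  rw [orderOf_eq_one_iff] at h3
  have h4 : (MulAut.conjNormal (H := C)) l = 1 := by
    apply (IsCyclic.mulAutMulEquiv ↥C).injective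
    rw [map_one]; exact h3
  rw [mem_centralizer_iff]
  intro c hc
  have h5 : ((MulAut.conjNormal (H := C) l) ⟨c, hc⟩ : ↥C) = ⟨c, hc⟩ := by rw [h4]; rfl
  have h6 := congrArg Subtype.val h5
  rw [MulAut.conjNormal_apply] at h6
  have h7 : l * c = (l * c * l⁻¹) * l := by group
  rw [h7, h6]

/-- **Lemma A** -/
theorem comm_mem_of_mem_LL [Finite G] {q : ℕ} [hq : Fact q.Prime] {X Y : Subgroup G} [hXn : X.Normal]
    [Y.Normal] (hX : IsPGroup q X) (hidx : Y.relIndex X = q) {l : G} (hl : l ∈ LL q G)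
    (hlo : (orderOf l).Coprime q) : ∀ x ∈ X, l * x * l⁻¹ * x⁻¹ ∈ Y := by
  intro x hx
  have hsurj := QuotientGroup.mk'_surjective Y
  have hn : (X.map (QuotientGroup.mk' Y)).Normal := hXn.map _ hsurj
  have hcard : Nat.card (X.map (QuotientGroup.mk' Y)) = q := by
    have h1 := Subgroup.relIndex_ker X (QuotientGroup.mk' Y)
    rw [QuotientGroup.ker_mk'] at h1
    rw [← h1, hidx]
  have hcyc : IsCyclic (X.map (QuotientGroup.mk' Y)) := isCyclic_of_prime_card hcard
  have h2 := mem_centralizer_of_mem_LL_cyclic (hX.map (QuotientGroup.mk' Y)) hcyc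
    (map_mem_LL (QuotientGroup.mk' Y) hl)
    (Nat.Coprime.coprime_dvd_left (orderOf_map_dvd _ l) hlo)
  have h3 := (mem_centralizer_iff.1 h2) _ (mem_map_of_mem _ hx)
  rw [← QuotientGroup.eq_one_iff]
  show QuotientGroup.mk' Y (l * x * l⁻¹ * x⁻¹) = 1
  rw [map_mul, map_mul, map_mul, map_inv, map_inv, ← h3]
  group

end

end Cfsg.Agent.Lib.Helper16
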