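import Mathlib
import Cfsg.Agent.Lib.Helper16.SS3

set_option autoImplicit false

universe u

namespace Cfsg.Agent.Lib.Helper16

open Subgroup
open scoped commutatorElement

section
variable {G : Type*} [Group G]

theorem mem_normalizer_of_normal' {E : Subgroup G} (h : E.Normal) (g : G) :
    g ∈ normalizer (E : Set G) := by
  rw [Subgroup.normalizer_eq_top]; exact mem_top g

/-- **local claim′** -/
theorem mem_centralizer_of_normal_card [Finite G] {p : ℕ} [hp : Fact p.Prime] {Q : Subgroup G}
    [hQn : Q.Normal] (hQ : IsPGroup p Q) {g : G} (hl : g ∈ LL p G) (hlo : (orderOf g).Coprime p) {d : ℕ}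
    (hd : d ≠ 0) (hc : p ^ d < Nat.card Q)
    (hinv : ∀ E ≤ Q, (Nat.card E = p ^ d ∨ (p ^ d = 2 ∧ Nat.card E = 4)) → E.Normal) :
    g ∈ centralizer (Q : Set G) := by
  by_contra hcon
  obtain ⟨Q₀, ⟨hQ₀Q, hgQ₀, hgC⟩, hmin⟩ := Set.Finite.exists_minimal
    (s := {U : Subgroup G | U ≤ Q ∧ g ∈ normalizer (U : Set G) ∧ g ∉ centralizer (U : Set G)})
    (Set.toFinite _) ⟨Q, le_rfl, mem_normalizer_of_normal' hQn g, hcon⟩
  have hmin' : ∀ U : Subgroup G, U < Q₀ → g ∈ normalizer (U : Set G) →
      g ∈ centralizer (U : Set G) := by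
    intro U hU hgU
    by_contra h1
    exact absurd (hmin ⟨hU.le.trans hQ₀Q, hgU, h1⟩ hU.le) (not_le_of_gt hU)
  have hQ₀ : IsPGroup p Q₀ := hQ.to_le hQ₀Q
  have hAp : (Nat.card (zpowers g)).Coprime p := by
    rw [Nat.card_zpowers]
    exact hlo
  obtain ⟨-, hstr, -, hodd⟩ := Cfsg.Agent.S3736.result (zpowers g) (zpowers g) Q₀ hQ₀
    (zpowers_le.2 hgQ₀) le_rfl Subgroup.le_normalizer hAp
    (fun h => hgC (mem_centralizer_iff_commutator_zpowers.2 h))
    (fun U hU hUn => mem_centralizer_iff_commutator_zpowers.1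
      (hmin' U hU (hUn (mem_zpowers g))))
  have hexp : ∀ x ∈ Q₀, x ^ p = 1 ∨ (p = 2 ∧ x ^ 4 = 1) := by
    intro x hx
    by_cases hp2 : p = 2
    · rcases hstr with h | h
      · exact Or.inl (h.2 x hx)
      · right
        refine ⟨hp2, ?_⟩
        have h1 := (Cfsg.H1.frattini_pgroup_ge p hQ₀).2 ⟨x, hx⟩
        rw [h.2.1] at h1
        have h2 := Cfsg.H1.special_center_exponent h _ h1
        have h3 : (x ^ p) ^ p = 1 := congrArg Subtype.val h2
        rw [← pow_mul, hp2] at h3
        exact h3
    · exact Or.inl (hodd hp2 x hx)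
  obtain ⟨t, ht⟩ := IsPGroup.iff_card.1 hQ₀
  obtain ⟨s, hs⟩ := IsPGroup.iff_card.1 hQ
  have hds : d < s := by
    rw [hs] at hc
    exact (Nat.pow_lt_pow_iff_right hp.out.one_lt).1 hc
  by_cases hcase : d < t
  · -- every element of `Q₀` lies in a proper invariant subgroup
    apply hgC
    rw [mem_centralizer_iff]
    intro x hx
    obtain ⟨j, hj⟩ := card_zpowers_eq_pow hQ₀ hx
    by_cases hjd : j ≤ d
    · obtain ⟨K, hxK, hKQ₀, hK⟩ := Cfsg.Agent.H20.exists_between (zpowers_le.2 hx) ht hj hjd hcase.le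
      have hgK := mem_normalizer_of_normal' (hinv K (hKQ₀.trans hQ₀Q) (Or.inl hK)) g
      have hlt : K < Q₀ := by
        refine lt_of_le_of_ne hKQ₀ ?_
        rintro rfl
        rw [hK] at ht
        exact absurd (Nat.pow_right_injective hp.out.two_le ht) hcase.ne
      have := hmin' K hlt hgK
      rw [mem_centralizer_iff] at this
      exact this x (hxK (mem_zpowers x))
    · have hjd' : d < j := not_le.1 hjd
      rw [Nat.card_zpowers] at hj
      rcases hexp x hx with h | ⟨hp2, h⟩
      · exfalso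
        have h1 := orderOf_dvd_of_pow_eq_one h
        rw [hj] at h1
        have h2 : j ≤ 1 := by
          by_contra h3
          have h4 : p ^ 2 ∣ p := (pow_dvd_pow p (by omega)).trans h1
          have h5 := Nat.le_of_dvd hp.out.pos h4
          have h6 := hp.out.two_le
          nlinarith
        omega
      · have h1 := orderOf_dvd_of_pow_eq_one h
        rw [hj, hp2] at h1
        have h2 : j ≤ 2 := by
          have : (2 : ℕ) ^ j ∣ 2 ^ 2 := by simpa using h1
          exact (Nat.pow_dvd_pow_iff_le_right (by norm_num)).1 this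
        have hj2 : j = 2 := by omega
        have hd1 : d = 1 := by omega
        have hgK := hinv (zpowers x) ((zpowers_le.2 hx).trans hQ₀Q)
          (Or.inr ⟨by rw [hd1, hp2]; norm_num, by rw [Nat.card_zpowers, hj, hp2, hj2]; norm_num⟩)
        have := mem_centralizer_of_mem_LL_cyclic (hQ₀.to_le (zpowers_le.2 hx)) inferInstance hl hlo
        rw [mem_centralizer_iff] at this
        exact this x (mem_zpowers x)
  · have htd : t ≤ d := not_lt.1 hcase
    obtain ⟨E₁, hQE, hEQ, hE₁⟩ := Cfsg.Agent.H20.exists_between hQ₀Q hs ht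
      (htd.trans (Nat.le_succ d)) (Nat.succ_le_of_lt hds)
    have hE₁p : IsPGroup p E₁ := hQ.to_le hEQ
    by_cases hcyc : IsCyclic E₁
    · apply hgC
      obtain ⟨E₂, hQE₂, hE₂E, hE₂⟩ := Cfsg.Agent.H20.exists_between hQE hE₁ ht htd (Nat.le_succ d)
      have hn2 := hinv E₂ (hE₂E.trans hEQ) (Or.inl hE₂)
      have : IsCyclic E₂ :=
        isCyclic_of_injective (Subgroup.inclusion hE₂E) (Subgroup.inclusion_injective hE₂E)
      have h3 := mem_centralizer_of_mem_LL_cyclic (hE₁p.to_le hE₂E) this hl hlo
      exact Subgroup.centralizer_le (SetLike.coe_subset_coe.2 hQE₂) h3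
    · have hnE₁ : E₁.Normal := by
        constructor
        intro y hy a
        obtain ⟨j, hj⟩ := card_zpowers_eq_pow hE₁p hy
        have hjd : j ≤ d := by
          by_contra h1
          apply hcyc
          have h2 : zpowers y = E₁ := by
            apply Subgroup.eq_of_le_of_card_ge (zpowers_le.2 hy)
            rw [hj, hE₁]
            exact Nat.pow_le_pow_right hp.out.pos (by omega)
          rw [← h2]; infer_instance
        obtain ⟨K, hyK, hKE, hK⟩ := Cfsg.Agent.H20.exists_between (zpowers_le.2 hy) hE₁ hj hjd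
          (Nat.le_succ d)
        have hgK := hinv K (hKE.trans hEQ) (Or.inl hK)
        exact hKE (hgK.conj_mem y (hyK (mem_zpowers y)) a)
      have key := Cfsg.H1.coprime_trivial_on_frattini_quotient (zpowers g) E₁
        (zpowers_le.2 (mem_normalizer_of_normal' hnE₁ g))
        (by
          obtain ⟨k, hk⟩ := IsPGroup.iff_card.1 (hE₁p.to_subgroup (frattini E₁))
          rw [hk]
          exact Nat.Coprime.pow_right k hAp)
        (by
          intro a ha k hk
          have haL : a ∈ LL p G := zpowers_le.2 hl ha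
          have hao : (orderOf a).Coprime p :=
            Nat.Coprime.coprime_dvd_left (orderOf_dvd_of_mem_zpowers ha) hlo
          apply mem_frattini_map_of_forall hE₁p
          · exact E₁.mul_mem (hnE₁.conj_mem k hk a) (E₁.inv_mem hk)
          · intro M hM hRM hidx
            have hMn : M.Normal := by
              apply hinv M (hM.trans hEQ)
              left
              have h1 := Cfsg.Agent.H20.card_mul_relIndex hM
              rw [hidx, hE₁, pow_succ] at h1
              exact Nat.eq_of_mul_eq_mul_right hp.out.pos h1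
            exact comm_mem_of_mem_LL hE₁p hidx haL hao k hk)
      exact hgC (Subgroup.centralizer_le (SetLike.coe_subset_coe.2 hQE) (key (mem_zpowers g)))

/-- **Part I** -/
theorem isSupersolvable_of_normal_card [Finite G] {p : ℕ} [hp : Fact p.Prime] {Q : Subgroup G}
    [hQn : Q.Normal] (hQ : IsPGroup p Q) (hss : Cfsg.IsSupersolvable (G ⧸ Q)) {d : ℕ}
    (hd : d ≠ 0) (hc : p ^ d < Nat.card Q)
    (hinv : ∀ E ≤ Q, (Nat.card E = p ^ d ∨ (p ^ d = 2 ∧ Nat.card E = 4)) → E.Normal) :
    Cfsg.IsSupersolvable G :=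
  isSupersolvable_of_LL p Q (LL p G) hQ hss (commutator_mem_LL p) (pow_mem_LL p)
    (fun _ hl hlo => mem_centralizer_of_normal_card hQ hl hlo hd hc hinv)

end

end Cfsg.Agent.Lib.Helper16
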