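import Mathlib
import Cfsg.Agent.Lib.Helper16.SS4
import Cfsg.Agent.Lib.Helper16.PClosed
import Cfsg.Agent.S3031
import Cfsg.Agent.H12.Cores

set_option autoImplicit false

universe u

namespace Cfsg.Agent.Lib.Helper16

open Subgroup
open scoped commutatorElement

section
variable {G : Type*} [Group G]

theorem HSub.of_map_subtype [Finite G] {E : Subgroup G} {F' : Subgroup E}
    (h : HSub (F'.map E.subtype)) : HSub F' := by
  intro g x hx
  obtain ⟨⟨y, hy, hyx⟩, hxN⟩ := hx
  have h1 : (x : G) ∈ F'.map E.subtype := by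
    apply h (g : G)
    refine ⟨⟨(y : G), ⟨y, hy, rfl⟩, ?_⟩, ?_⟩
    · rw [← hyx]; rfl
    · apply mem_normalizer_of_conj_mem
      rintro _ ⟨w, hw, rfl⟩
      exact ⟨x * w * x⁻¹, (mem_normalizer_iff.1 hxN w).1 hw, rfl⟩
  obtain ⟨z, hz, hzx⟩ := h1
  have : z = x := Subtype.ext hzx
  exact this ▸ hz

/-- the hypothesis of the supersolvability criterion -/
def SSHyp (E : Subgroup G) : Prop :=
  ∀ (p : ℕ), p.Prime → ∀ P : Subgroup G, P ≤ E → IsPGroup p P → ¬ p ∣ P.relIndex E → ¬ IsCyclic ↥P →
      ∃ D : Subgroup G, D ≤ P ∧ 1 < Nat.card D ∧ Nat.card D < Nat.card P ∧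
        ∀ F : Subgroup G, F ≤ P → (Nat.card F = Nat.card D ∨ (Nat.card D = 2 ∧ Nat.card F = 4)) →
          HSub F

theorem card_map_mk'_of_disjoint {K F : Subgroup G} [K.Normal] (h : K ⊓ F = ⊥) :
    Nat.card (F.map (QuotientGroup.mk' K)) = Nat.card F := by
  have h1 := Subgroup.relIndex_ker F (QuotientGroup.mk' K)
  rw [QuotientGroup.ker_mk'] at h1
  rw [← h1, ← Subgroup.inf_relIndex_right, h, Subgroup.relIndex_bot_left]

theorem ss_step [Finite G] {E : Subgroup G} [hEn : E.Normal] (hne : E ≠ ⊥)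
    (hss : Cfsg.IsSupersolvable (G ⧸ E)) (hE : SSHyp E) :
    ∃ K : Subgroup G, ∃ _ : K.Normal, Nat.card K < Nat.card E ∧ Cfsg.IsSupersolvable (G ⧸ K) ∧
      SSHyp K := by
  have hc1 : Nat.card E ≠ 1 := fun h => hne ((Subgroup.card_eq_one).1 h)
  set p := (Nat.card E).minFac with hpdef
  have hp : Fact p.Prime := ⟨Nat.minFac_prime hc1⟩
  have hdiv : p ∣ Nat.card E := Nat.minFac_dvd _
  have hmin : ∀ q : ℕ, q.Prime → q ∣ Nat.card E → p ≤ q := fun q hq hqd =>
    Nat.minFac_le_of_dvd hq.two_le hqd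
  obtain ⟨P'⟩ : Nonempty (Sylow p E) := inferInstance
  set P : Subgroup G := (P' : Subgroup E).map E.subtype with hPdef
  have hPE : P ≤ E := Subgroup.map_subtype_le _
  have hP : IsPGroup p P := P'.2.map _
  have hPsub : P.subgroupOf E = (P' : Subgroup E) :=
    Subgroup.comap_map_eq_self_of_injective E.subtype_injective _
  have hidx : ¬ p ∣ P.relIndex E := by
    rw [Subgroup.relIndex, hPsub]; exact P'.not_dvd_index
  have hcardmap : ∀ F' : Subgroup E, Nat.card (F'.map E.subtype) = Nat.card F' := fun F' =>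
    Subgroup.card_map_of_injective E.subtype_injective
  have hNPC : Cfsg.HasNormalPComplement p E := by
    apply Cfsg.Agent.S3031.result hdiv hmin P'
    by_cases hcyc : IsCyclic P
    · left
      exact isCyclic_of_injective
        ((P' : Subgroup E).equivMapOfInjective E.subtype E.subtype_injective).toMonoidHom
        ((P' : Subgroup E).equivMapOfInjective E.subtype E.subtype_injective).injective
    · right
      obtain ⟨D, hDP, h1, h2, h3⟩ := hE p hp.out P hPE hP hidx hcyc
      have hD' : (D.subgroupOf E).map E.subtype = D := by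
        rw [Subgroup.subgroupOf_map_subtype, inf_eq_left.2 (hDP.trans hPE)]
      have hcD : Nat.card (D.subgroupOf E) = Nat.card D := by rw [← hcardmap, hD']
      refine ⟨D.subgroupOf E, ?_, ?_, ?_, ?_⟩
      · rw [← hPsub]; exact Subgroup.comap_mono hDP
      · rw [hcD]; exact h1
      · rw [hcD, ← hcardmap]; exact h2
      · intro F' hF' hc
        rw [hcD, ← hcardmap F'] at hc
        exact (h3 (F'.map E.subtype) (Subgroup.map_mono hF') hc).of_map_subtype
  set K : Subgroup G := (Cfsg.pResidual p E).map E.subtype with hKdef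
  have hKn : K.Normal := by
    rw [← Subgroup.normalizer_eq_top_iff, eq_top_iff]
    refine le_trans ?_ (normalizer_le_normalizer_pResidual E)
    rw [Subgroup.normalizer_eq_top]
  have hKE : K ≤ E := Subgroup.map_subtype_le _
  have hKc : (Nat.card K).Coprime p := by
    rw [hcardmap]; exact Cfsg.Agent.H12.hasNormalPComplement_iff.1 hNPC
  have hKP : ∀ e ∈ E, ∃ k ∈ K, ∃ x ∈ P, e = k * x := by
    intro e he
    have h1 : (⟨e, he⟩ : E) ∈ Cfsg.pResidual p E ⊔ (P' : Subgroup E) := by
      rw [Cfsg.Agent.H12.pResidual_sup_sylow]; exact mem_top _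
    rw [← SetLike.mem_coe, Subgroup.normal_mul] at h1
    obtain ⟨k, hk, x, hx, hkx⟩ := h1
    exact ⟨k, ⟨k, hk, rfl⟩, x, ⟨x, hx, rfl⟩, (congrArg Subtype.val hkx).symm⟩
  have hdisj : K ⊓ P = ⊥ := by
    obtain ⟨n, hn⟩ := IsPGroup.iff_card.1 hP
    rw [← disjoint_iff]
    apply Subgroup.disjoint_of_coprime_natCard
    rw [hn]; exact hKc.pow_right n
  have hlt : Nat.card K < Nat.card E := by
    refine lt_of_le_of_ne (Subgroup.card_le_of_le hKE) ?_
    intro h
    rw [h] at hKc
    exact hp.out.one_lt.ne' (Nat.eq_one_of_dvd_coprimes hKc hdiv dvd_rfl)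
  set f := QuotientGroup.mk' K with hf
  have hfs : Function.Surjective f := QuotientGroup.mk'_surjective K
  have hfk : ∀ k ∈ K, f k = 1 := fun k hk => (QuotientGroup.eq_one_iff k).2 hk
  have hQeq : E.map f = P.map f := by
    apply le_antisymm
    · rintro _ ⟨e, he, rfl⟩
      obtain ⟨k, hk, x, hx, rfl⟩ := hKP e he
      exact ⟨x, hx, by rw [map_mul, hfk k hk, one_mul]⟩
    · exact Subgroup.map_mono hPE
  have hQn : (E.map f).Normal := hEn.map f hfs
  have hQ : IsPGroup p (E.map f) := by rw [hQeq]; exact hP.map f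
  have hss2 : Cfsg.IsSupersolvable ((G ⧸ K) ⧸ (E.map f)) :=
    Cfsg.Agent.H4.isSupersolvable_of_injective
      (QuotientGroup.quotientQuotientEquivQuotient K E hKE).toMonoidHom
      (QuotientGroup.quotientQuotientEquivQuotient K E hKE).injective hss
  have hcQ : Nat.card (E.map f) = Nat.card P := by
    rw [hQeq]; exact card_map_mk'_of_disjoint hdisj
  refine ⟨K, hKn, hlt, ?_, ?_⟩
  · by_cases hcyc : IsCyclic P
    · have : IsCyclic (E.map f) := by
        rw [hQeq]
        exact isCyclic_of_surjective (f.subgroupMap P) (f.subgroupMap_surjective P)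
      exact Cfsg.Agent.H4.isSupersolvable_of_cyclic_normal (E.map f) hss2
    · obtain ⟨D, hDP, h1, h2, h3⟩ := hE p hp.out P hPE hP hidx hcyc
      obtain ⟨d, hd⟩ := IsPGroup.iff_card.1 (hP.to_le hDP)
      have hd0 : d ≠ 0 := by
        rintro rfl
        rw [hd] at h1
        simp at h1
      apply isSupersolvable_of_normal_card hQ hss2 hd0 (by rw [hcQ, ← hd]; exact h2)
      intro Ē hĒ hcard
      set F : Subgroup G := Ē.comap f ⊓ P with hF
      have hFP : F ≤ P := inf_le_right
      have hFmap : F.map f = Ē := by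
        apply le_antisymm
        · rintro _ ⟨y, hy, rfl⟩
          exact hy.1
        · intro y hy
          have h4 := hĒ hy
          rw [hQeq] at h4
          obtain ⟨x, hx, rfl⟩ := h4
          exact ⟨x, ⟨hy, hx⟩, rfl⟩
      have hFc : Nat.card F = Nat.card Ē := by
        rw [← hFmap]
        refine (card_map_mk'_of_disjoint ?_).symm
        rw [eq_bot_iff, ← hdisj]
        exact inf_le_inf_left K hFP
      have hFH : HSub F := by
        apply h3 F hFP
        rw [hFc, hd]; exact hcard
      constructor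
      intro y hy a
      obtain ⟨g, rfl⟩ := hfs a
      rw [← hFmap] at hy ⊢
      obtain ⟨z, hz, rfl⟩ := hy
      obtain ⟨n, hn, hng⟩ := frattini_arg (M := ⊤) (isSyl_mk P')
        (by rw [Subgroup.normalizer_eq_top]) (mem_top g)
      obtain ⟨k, hk, x, hx, rfl⟩ := hKP n hn
      have hm : x⁻¹ * (k * x * g) ∈ normalizer (P : Set G) :=
        Subgroup.mul_mem _ (Subgroup.le_normalizer (P.inv_mem hx)) hng
      have hfm : f (x⁻¹ * (k * x * g)) = f g := by
        rw [map_mul, map_mul, map_mul, hfk k hk, map_inv]; group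
      rw [← hfm, ← map_inv, ← map_mul, ← map_mul]
      apply Subgroup.mem_map_of_mem
      exact hFH.conj_mem hP hFP hz ((mem_normalizer_iff.1 hm z).1 (hFP hz))
  · intro r hr R hRK hR hRidx hRcyc
    by_cases hrp : r = p
    · exfalso
      apply hRcyc
      subst hrp
      obtain ⟨j, hj⟩ := IsPGroup.iff_card.1 hR
      have h1 : Nat.card R = 1 := by
        apply Nat.eq_one_of_dvd_coprimes (hKc.pow_right j) (Subgroup.card_dvd_of_le hRK)
        rw [hj]
      have h2 : R = ⊥ := (Subgroup.card_eq_one).1 h1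
      rw [h2]; infer_instance
    · apply hE r hr R (hRK.trans hKE) hR ?_ hRcyc
      rw [← Subgroup.relIndex_mul_relIndex R K E hRK hKE]
      intro h1
      rcases (Nat.Prime.dvd_mul hr).1 h1 with h2 | h2
      · exact hRidx h2
      · have h3 := Subgroup.relIndex_ker E f
        rw [hf, QuotientGroup.ker_mk'] at h3
        obtain ⟨j, hj⟩ := IsPGroup.iff_card.1 hQ
        rw [h3, hj] at h2
        exact hrp ((Nat.prime_dvd_prime_iff_eq hr hp.out).1 (hr.dvd_of_dvd_pow h2))

theorem isSupersolvable_of_ssHyp [Finite G] : ∀ (n : ℕ) (E : Subgroup G) [E.Normal], Nat.card E = n →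
    Cfsg.IsSupersolvable (G ⧸ E) → SSHyp E → Cfsg.IsSupersolvable G := by
  intro n
  induction n using Nat.strong_induction_on with
  | _ n ih =>
    intro E hEn hn hss hE
    by_cases hne : E = ⊥
    · apply Cfsg.Agent.H4.isSupersolvable_of_injective (QuotientGroup.mk' E) ?_ hss
      rw [← MonoidHom.ker_eq_bot_iff, QuotientGroup.ker_mk', hne]
    · obtain ⟨K, hKn, hlt, hssK, hK⟩ := ss_step hne hss hE
      exact ih (Nat.card K) (hn ▸ hlt) K rfl hssK hK

end

end Cfsg.Agent.Lib.Helper16
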