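import Cfsg.Agent.S0035
import Cfsg.Agent.S0042
import Cfsg.Agent.Lib.Helper16.Basic

set_option autoImplicit false
open Cfsg
open scoped Pointwise

namespace Cfsg.Agent.Lib.Helper16

section solvcent
variable {G : Type*} [Group G]

theorem isSolvable_sup_of_le_normalizer' {X Y : Subgroup G}
    (hn : Y ≤ Subgroup.normalizer (X : Set G)) (hX : Group.IsSolvable ↥X)
    (hY : Group.IsSolvable ↥Y) : Group.IsSolvable ↥(X ⊔ Y) := by
  rw [sup_comm]
  have := Subgroup.normal_subgroupOf_of_le_normalizer hn
  have := Subgroup.normal_subgroupOf_sup_of_le_normalizer hn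
  have h1 : Group.IsSolvable (↥Y ⧸ X.subgroupOf Y) :=
    Group.isSolvable_of_surjective (QuotientGroup.mk'_surjective _)
  have h2 : Group.IsSolvable (↥(Y ⊔ X) ⧸ X.subgroupOf (Y ⊔ X)) :=
    Group.isSolvable_of_surjective
      (f := (QuotientGroup.quotientInfEquivProdNormalizerQuotient Y X hn).toMonoidHom)
      (QuotientGroup.quotientInfEquivProdNormalizerQuotient Y X hn).surjective
  refine Group.isSolvable_of_ker_le_range (Subgroup.inclusion (le_sup_right : X ≤ Y ⊔ X))
    (QuotientGroup.mk' (X.subgroupOf (Y ⊔ X))) ?_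
  rw [QuotientGroup.ker_mk']
  intro x hx
  exact ⟨⟨x, hx⟩, rfl⟩

theorem isSolvable_of_map_mk_center (S : Subgroup G)
    (h : Group.IsSolvable ↥(S.map (QuotientGroup.mk' (Subgroup.center G)))) :
    Group.IsSolvable ↥S := by
  have := h
  have : Group.IsSolvable ↥((Subgroup.center G).subgroupOf S) :=
    Group.isSolvable_of_comm (fun a b => by
      apply Subtype.ext
      apply Subtype.ext
      have := Subgroup.mem_center_iff.1 (Subgroup.mem_subgroupOf.1 a.2) ((b : S) : G)
      exact this.symm)
  refine Group.isSolvable_of_ker_le_range ((Subgroup.center G).subgroupOf S).subtype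
    ((QuotientGroup.mk' (Subgroup.center G)).subgroupMap S) ?_
  intro x hx
  rw [MonoidHom.mem_ker] at hx
  have h1 : QuotientGroup.mk' (Subgroup.center G) (x : G) = 1 := congrArg Subtype.val hx
  rw [QuotientGroup.mk'_apply, QuotientGroup.eq_one_iff] at h1
  exact ⟨⟨x, h1⟩, rfl⟩

theorem solvCent_core [Finite G] (A : Subgroup G) (hA : Group.IsSolvable ↥A)
    (hc : ∀ S : Subgroup G, A ≤ S → Group.IsSolvable ↥S → S ≤ Subgroup.centralizer (A : Set G))
    (hmin : ∀ H : Subgroup G, A ≤ H → H ≠ ⊤ → H ≤ Subgroup.centralizer (A : Set G)) :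
    Subgroup.centralizer (A : Set G) = ⊤ := by
  by_contra hC
  set C := Subgroup.centralizer (A : Set G) with hCdef
  have hAC : A ≤ C := hc A le_rfl hA
  have hNC : ∀ g : G, g ∉ C → C.map (MulAut.conj g).toMonoidHom ≠ C := by
    intro g hg hgC
    have hN : Subgroup.normalizer (C : Set G) = ⊤ := by
      by_contra hne
      exact hg (hmin _ (hAC.trans Subgroup.le_normalizer) hne (cj_eq_self_iff.1 hgC))
    have hCn : C.Normal := Subgroup.normalizer_eq_top_iff.1 hN
    set B := Subgroup.normalClosure (A : Set G) with hB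
    have hBC : B ≤ C := Subgroup.normalClosure_le_normal hAC
    have hBcent : B ≤ Subgroup.centralizer (C : Set G) := by
      apply Subgroup.normalClosure_le_normal
      have : A ≤ Subgroup.centralizer (C : Set G) := by
        rw [Subgroup.le_centralizer_iff]
      exact this
    have hBab : Group.IsSolvable ↥B := Group.isSolvable_of_comm (fun a b => by
      apply Subtype.ext
      exact ((Subgroup.mem_centralizer_iff.1 (hBcent b.2)) a.1 (hBC a.2)))
    have hBn : B.Normal := Subgroup.normalClosure_normal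
    have hsol : Group.IsSolvable ↥(B ⊔ Subgroup.zpowers g) :=
      isSolvable_sup_of_le_normalizer'
        (by rw [Subgroup.normalizer_eq_top_iff.2 hBn]; exact le_top) hBab inferInstance
    have h1 := hc _ ((Subgroup.le_normalClosure).trans le_sup_left) hsol
    exact hg (h1 ((le_sup_right : Subgroup.zpowers g ≤ B ⊔ Subgroup.zpowers g)
      (Subgroup.mem_zpowers g)))
  have hgen : ∀ g : G, g ∉ C → A ⊔ A.map (MulAut.conj g).toMonoidHom = ⊤ := by
    intro g hg
    by_contra hne
    have hD := hmin _ le_sup_left hne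
    have hAg : A.map (MulAut.conj g).toMonoidHom ≤ C := le_sup_right.trans hD
    have hA' : A ≤ C.map (MulAut.conj g).toMonoidHom := by
      rw [hCdef, ← centralizer_cj, Subgroup.le_centralizer_iff]
      exact hAg
    have hne' : C.map (MulAut.conj g).toMonoidHom ≠ ⊤ := by
      intro h
      apply hC
      apply Subgroup.eq_top_of_card_eq
      rw [← card_cj g C, h, Subgroup.card_top]
    have hle := hmin _ hA' hne'
    have heq : C.map (MulAut.conj g).toMonoidHom = C :=
      Subgroup.eq_of_le_of_card_ge hle (by rw [card_cj])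
    exact hNC g hg heq
  have hTI : ∀ g : G, g ∉ C → C ⊓ C.map (MulAut.conj g).toMonoidHom ≤ Subgroup.center G := by
    intro g hg x hx
    obtain ⟨h1, h2⟩ := Subgroup.mem_inf.1 hx
    rw [hCdef, ← centralizer_cj] at h2
    have h3 : A ⊔ A.map (MulAut.conj g).toMonoidHom ≤ Subgroup.centralizer ({x} : Set G) := by
      apply sup_le
      · intro a ha
        rw [Subgroup.mem_centralizer_singleton_iff]
        exact ((Subgroup.mem_centralizer_iff.1 h1) a ha)
      · intro a ha
        rw [Subgroup.mem_centralizer_singleton_iff]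
        exact ((Subgroup.mem_centralizer_iff.1 h2) a ha)
    rw [hgen g hg] at h3
    rw [Subgroup.mem_center_iff]
    intro y
    have h4 := h3 (Subgroup.mem_top y)
    rw [Subgroup.mem_centralizer_singleton_iff] at h4
    exact h4
  set Z := Subgroup.center G with hZ
  have hZC : Z ≤ C := Subgroup.center_le_centralizer _
  set π := QuotientGroup.mk' Z with hπ
  have hfrob : IsFrobeniusComplement (C.map π) := by
    refine ⟨?_, ?_, ?_⟩
    · intro h
      rw [Subgroup.map_eq_bot_iff, QuotientGroup.ker_mk'] at h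
      apply hC
      rw [hCdef, Subgroup.centralizer_eq_top_iff_subset]
      exact fun a ha => h (hAC ha)
    · intro h
      apply hC
      have h1 := Subgroup.comap_map_eq_self (f := π) (H := C)
        (by rw [QuotientGroup.ker_mk']; exact hZC)
      rw [← h1, h, Subgroup.comap_top]
    · intro gb hgb
      obtain ⟨g, rfl⟩ := QuotientGroup.mk'_surjective Z gb
      have hg : g ∉ C := fun h => hgb (Subgroup.mem_map_of_mem π h)
      rw [eq_bot_iff]
      intro xb hxb
      obtain ⟨h1, h2⟩ := Subgroup.mem_inf.1 hxb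
      obtain ⟨x, hx, rfl⟩ := Subgroup.mem_map.1 h1
      rw [Subgroup.mem_pointwise_smul_iff_inv_smul_mem] at h2
      have h3 : π (g⁻¹ * x * g) ∈ C.map π := by
        have e : (MulAut.conj (π g))⁻¹ • π x = π (g⁻¹ * x * g) := by
          rw [MulAut.smul_def, MulAut.conj_inv_apply, map_mul, map_mul, map_inv]
        rw [← e]
        exact h2
      obtain ⟨y, hy, hyx⟩ := Subgroup.mem_map.1 h3
      have h4 : g⁻¹ * x * g ∈ C := by
        have h5 : y⁻¹ * (g⁻¹ * x * g) ∈ Z := QuotientGroup.eq.1 hyx
        have h6 := C.mul_mem hy (hZC h5)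
        simpa using h6
      have h5 : x ∈ C.map (MulAut.conj g).toMonoidHom := mem_cj.2 h4
      have h6 := hTI g hg (Subgroup.mem_inf.2 ⟨hx, h5⟩)
      rw [Subgroup.mem_bot]
      exact (QuotientGroup.eq_one_iff x).2 h6
  obtain ⟨N, hN, hNn, hNc⟩ := Cfsg.Agent.S0035.result (C.map π) hfrob
  obtain ⟨N', hN', _, hNil⟩ := Cfsg.Agent.S0042.result (C.map π) hfrob
  have hNN : N' = N := SetLike.coe_injective (hN'.trans hN.symm)
  subst hNN
  have hsurj := QuotientGroup.mk'_surjective Z
  have hKA : Group.IsSolvable ↥(N'.comap π ⊔ A) := by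
    apply isSolvable_of_map_mk_center
    rw [Subgroup.map_sup, Subgroup.map_comap_eq_self_of_surjective hsurj]
    apply isSolvable_sup_of_le_normalizer'
    · rw [Subgroup.normalizer_eq_top_iff.2 hNn]; exact le_top
    · infer_instance
    · exact Group.isSolvable_of_surjective (f := π.subgroupMap A) (π.subgroupMap_surjective A)
  have hKC : N'.comap π ≤ C := le_sup_left.trans (hc _ le_sup_right hKA)
  have hNle : N' ≤ C.map π := by
    rw [← Subgroup.map_comap_eq_self_of_surjective hsurj N']
    exact Subgroup.map_mono hKC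
  have h1 := hNc.sup_eq_top
  rw [sup_eq_right.2 hNle] at h1
  exact hfrob.2.1 h1

theorem solvCent_main [Finite G] (A : Subgroup G) (hA : Group.IsSolvable ↥A)
    (hc : ∀ S : Subgroup G, A ≤ S → Group.IsSolvable ↥S → S ≤ Subgroup.centralizer (A : Set G)) :
    Subgroup.centralizer (A : Set G) = ⊤ := by
  by_contra hC
  obtain ⟨H, ⟨hAH, hHC⟩, hmin⟩ := Set.Finite.exists_minimal
    (s := {H : Subgroup G | A ≤ H ∧ ¬ H ≤ Subgroup.centralizer (A : Set G)}) (Set.toFinite _)
    ⟨⊤, le_top, fun h => hC (top_le_iff.1 h)⟩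
  have tr : ∀ S : Subgroup ↥H, S.map H.subtype ≤ Subgroup.centralizer (A : Set G) →
      S ≤ Subgroup.centralizer ((A.subgroupOf H : Subgroup ↥H) : Set ↥H) := by
    intro S h3 s hs
    rw [Subgroup.mem_centralizer_iff]
    intro a ha
    have h4 := (Subgroup.mem_centralizer_iff.1 (h3 (Subgroup.mem_map_of_mem H.subtype hs))) a.1 ha
    exact Subtype.ext h4
  have tr2 : ∀ S : Subgroup ↥H, A.subgroupOf H ≤ S → A ≤ S.map H.subtype := by
    intro S hAS a ha
    exact ⟨⟨a, hAH ha⟩, hAS (Subgroup.mem_subgroupOf.2 ha), rfl⟩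
  have key := solvCent_core (G := ↥H) (A.subgroupOf H) ?_ ?_ ?_
  · apply hHC
    intro h hh
    have h1 : (⟨h, hh⟩ : H) ∈ Subgroup.centralizer ((A.subgroupOf H : Subgroup H) : Set H) := by
      rw [key]; trivial
    rw [Subgroup.mem_centralizer_iff] at h1 ⊢
    intro a ha
    have h2 := h1 ⟨a, hAH ha⟩ (Subgroup.mem_subgroupOf.2 ha)
    exact congrArg Subtype.val h2
  · exact Group.isSolvable_of_isSolvable_injective
      (f := (Subgroup.subgroupOfEquivOfLe hAH).toMonoidHom) (MulEquiv.injective _)
  · intro S hAS hS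
    have h2 : Group.IsSolvable ↥(S.map H.subtype) :=
      Group.isSolvable_of_surjective (f := H.subtype.subgroupMap S)
        (H.subtype.subgroupMap_surjective S)
    exact tr S (hc _ (tr2 S hAS) h2)
  · intro H' hAH' hne
    apply tr
    by_contra hcon
    have h5 := hmin ⟨tr2 H' hAH', hcon⟩ (Subgroup.map_subtype_le H')
    apply hne
    rw [eq_top_iff]
    intro x _
    obtain ⟨y, hy, hyx⟩ := h5 x.2
    have : y = x := Subtype.ext hyx
    exact this ▸ hy

end solvcent

end Cfsg.Agent.Lib.Helper16
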